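import Mathlib
import Cfsg.Agent.H29.AutSix.Data

/-!
Sylow subgroups of the automorphism group of the alternating group of degree six.
-/

set_option autoImplicit false

namespace CfsgLib.H29.AutSix

open CfsgLib.H29.PermChain
open scoped Pointwise

/-- The alternating group. -/
abbrev A6 := alternatingGroup (Fin 6)

/-- The table of an element. -/
def t (x : A6) : List ℕ := tab (x : Equiv.Perm (Fin 6))

theorem t_injective : Function.Injective t := fun _ _ h => Subtype.ext (tab_injective h)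

theorem t_one : t 1 = idt 6 := tab_one

theorem t_mul (x y : A6) : t (x * y) = comp (t x) (t y) := (comp_tab _ _).symm

theorem t_inv (x : A6) : t x⁻¹ = invt (t x) := (invt_tab _).symm

theorem t_pow (x : A6) : ∀ n, t (x ^ n) = pw (t x) n
  | 0 => by rw [pow_zero]; exact t_one
  | n + 1 => by rw [pow_succ, t_mul, t_pow x n]; rfl

/-- Evaluation in the group. -/
def evG {M : Type*} [Monoid M] (a b : M) : List Bool → M
  | [] => 1
  | s :: r => (bif s then b else a) * evG a b r

theorem t_evG (a b : A6) : ∀ w, t (evG a b w) = ev (t a) (t b) w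
  | [] => t_one
  | s :: r => by
    cases s <;> simp [evG, ev, t_mul, t_evG a b r]

theorem map_evG {M N : Type*} [Monoid M] [Monoid N] (f : M →* N) (a b : M) :
    ∀ w, f (evG a b w) = evG (f a) (f b) w
  | [] => map_one f
  | s :: r => by
    cases s <;> simp [evG, map_mul, map_evG f a b r]

theorem mem_els (x : A6) : t x ∈ els := by
  have := cover x (Equiv.Perm.mem_alternatingGroup.mp x.2)
  simpa [t, List.contains_iff_mem] using this

theorem exists_gens : ∃ a b : A6, t a = ta ∧ t b = tb := by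
  have key : ∀ l : List ℕ, (∃ g : Equiv.Perm (Fin 6), Equiv.Perm.sign g = 1 ∧ tab g = l) →
      ∃ a : A6, t a = l := fun l ⟨g, hg, e⟩ => ⟨⟨g, Equiv.Perm.mem_alternatingGroup.mpr hg⟩, e⟩
  obtain ⟨a, ha⟩ := key ta (by decide +kernel)
  obtain ⟨b, hb⟩ := key tb (by decide +kernel)
  exact ⟨a, b, ha, hb⟩

variable {a b : A6}

theorem exists_word (ha : t a = ta) (hb : t b = tb) (x : A6) : ∃ w ∈ ws, x = evG a b w := by
  obtain ⟨w, hw, e⟩ := List.mem_map.1 (mem_els x)
  exact ⟨w, hw, t_injective (by rw [t_evG, ha, hb, e])⟩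

theorem rel_iff (x y : A6) : rel (t x) (t y) = true ↔
    x ≠ 1 ∧ y ≠ 1 ∧ x ^ 3 = 1 ∧ y ^ 5 = 1 ∧ (x * y) ^ 4 = 1 ∧ (x * y * y) ^ 4 = 1 := by
  simp only [rel, Bool.and_eq_true, Bool.not_eq_true', beq_iff_eq, beq_eq_false_iff_ne]
  rw [← t_mul, ← t_mul, ← t_pow, ← t_pow, ← t_pow, ← t_pow, ← t_one]
  simp only [ne_eq, t_injective.eq_iff, and_assoc]

theorem mem_imgs (x y : A6) (h : rel (t x) (t y) = true) : (t x, t y) ∈ imgs := by
  obtain ⟨h1, h2, h3, h4, -, -⟩ := (rel_iff x y).1 h
  simp only [imgs, List.mem_flatMap, List.mem_map, List.mem_filter, Bool.and_eq_true,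
    Bool.not_eq_true', beq_iff_eq, beq_eq_false_iff_ne, Prod.mk.injEq]
  refine ⟨t x, ⟨mem_els x, ?_, by rw [← t_pow, h3, t_one]⟩, t y,
    ⟨⟨mem_els y, ?_, by rw [← t_pow, h4, t_one]⟩, h⟩, rfl, rfl⟩
  · exact fun e => h1 (t_injective (e.trans t_one.symm))
  · exact fun e => h2 (t_injective (e.trans t_one.symm))

/-- The Sylow subgroup. -/
def sylGroup : Subgroup A6 :=
  Subgroup.ofDiv {x | t x ∈ sylD} ⟨1, by
      show t 1 ∈ sylD
      rw [t_one]
      simpa [List.contains_iff_mem] using syl_ok.2.2.2.1⟩ (fun x hx y hy => by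
    have hmul : ∀ u v : A6, t u ∈ sylD → t v ∈ sylD → t (u * v) ∈ sylD := fun u v hu hv => by
      have h := List.all_eq_true.1 (List.all_eq_true.1 syl_ok.2.2.1 _ hu) _ hv
      rw [t_mul]; simpa [List.contains_iff_mem] using h
    have hpow : ∀ n : ℕ, t (y ^ (n + 1)) ∈ sylD := fun n => by
      induction n with
      | zero => simpa using hy
      | succ n ih => rw [pow_succ]; exact hmul _ _ ih hy
    have hord : 0 < orderOf y := orderOf_pos y
    rcases Nat.lt_or_ge 1 (orderOf y) with h | h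
    · have e : y⁻¹ = y ^ (orderOf y - 2 + 1) := by
        rw [show orderOf y - 2 + 1 = orderOf y - 1 by omega]
        refine inv_eq_of_mul_eq_one_right ?_
        rw [← pow_succ', Nat.sub_add_cancel hord, pow_orderOf_eq_one]
      exact e ▸ hmul _ _ hx (hpow _)
    · have : y = 1 := orderOf_eq_one_iff.mp (by omega)
      subst this
      simpa using hx)

theorem mem_sylGroup {x : A6} : x ∈ sylGroup ↔ t x ∈ sylD := Iff.rfl

theorem card_sylGroup : Nat.card sylGroup = 8 := by
  classical
  have e : Nat.card sylGroup = sylD.toFinset.card := by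
    rw [← Nat.card_eq_finsetCard]
    refine Nat.card_congr (Equiv.ofBijective (fun x => ⟨t x.1, List.mem_toFinset.mpr x.2⟩) ⟨?_, ?_⟩)
    · intro x y h
      exact Subtype.ext (t_injective (congrArg Subtype.val h))
    · rintro ⟨l, hl⟩
      rw [List.mem_toFinset] at hl
      have h1 := syl_ok.1
      rw [← h1] at hl
      obtain ⟨w, -, rfl⟩ := List.mem_map.1 hl
      obtain ⟨a, b, ha, hb⟩ := exists_gens
      refine ⟨⟨evG a b w, ?_⟩, Subtype.ext ?_⟩
      · rw [mem_sylGroup, t_evG, ha, hb, ← h1]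
        assumption
      · show t (evG a b w) = _
        rw [t_evG, ha, hb]
  rw [e, List.toFinset_card_of_nodup syl_ok.2.1, syl_ok.2.2.2.2]

theorem normalizes_self {g : A6} (h : ∀ d ∈ sylGroup, g * d * g⁻¹ ∈ sylGroup) : g ∈ sylGroup := by
  have hh := List.all_eq_true.1 self_norm _ (mem_els g)
  simp only [Bool.or_eq_true, List.contains_iff_mem, Bool.not_eq_true', List.all_eq_false] at hh
  rcases hh with hh | ⟨d, hd, hn⟩
  · exact hh
  · refine absurd ?_ hn
    have h1 := syl_ok.1
    have hd' := hd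
    rw [← h1] at hd'
    obtain ⟨w, -, e⟩ := List.mem_map.1 hd'
    obtain ⟨a, b, ha, hb⟩ := exists_gens
    have hm : evG a b w ∈ sylGroup := by rw [mem_sylGroup, t_evG, ha, hb, e]; exact hd
    have := h _ hm
    rw [mem_sylGroup, t_mul, t_mul, t_inv, t_evG, ha, hb, e] at this
    simpa [List.contains_iff_mem] using this

variable {G : Type*} [Group G] [Finite G] (N : Subgroup G) [N.Normal] (e : N ≃* A6)

/-- The automorphism induced by conjugation. -/
def auto (g : G) : MulAut A6 := (e.symm.trans (MulAut.conjNormal g)).trans e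

omit [Finite G] in
theorem auto_apply (g : G) (x : A6) :
    ((e.symm (auto N e g x) : N) : G) = g * (e.symm x : N) * g⁻¹ := by
  simp [auto, MulAut.conjNormal_apply]

theorem eq_of_gens (hC : Subgroup.centralizer (N : Set G) = ⊥) (ha : t a = ta) (hb : t b = tb) {g h : G}
    (e1 : auto N e g a = auto N e h a) (e2 : auto N e g b = auto N e h b) : g = h := by
  have hall : ∀ x, auto N e g x = auto N e h x := fun x => by
    obtain ⟨w, -, rfl⟩ := exists_word ha hb x
    have h1 := map_evG (auto N e g).toMonoidHom a b w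
    have h2 := map_evG (auto N e h).toMonoidHom a b w
    simp only [MulEquiv.coe_toMonoidHom] at h1 h2
    rw [h1, h2, e1, e2]
  have : h⁻¹ * g ∈ Subgroup.centralizer (N : Set G) := by
    intro n hn
    have h' := congrArg (fun y : A6 => ((e.symm y : N) : G)) (hall (e ⟨n, hn⟩))
    simp only [auto_apply, MulEquiv.symm_apply_apply] at h'
    calc n * (h⁻¹ * g) = h⁻¹ * (h * n * h⁻¹) * g := by group
      _ = h⁻¹ * (g * n * g⁻¹) * g := by rw [h']
      _ = h⁻¹ * g * n := by group
  rw [hC, Subgroup.mem_bot, inv_mul_eq_one] at this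
  exact this.symm

theorem exists_auto (hidx : N.index = 4) (hC : Subgroup.centralizer (N : Set G) = ⊥) (ha : t a = ta)
    (hb : t b = tb) (x y : A6) (h : rel (t x) (t y) = true) :
    ∃ g : G, auto N e g a = x ∧ auto N e g b = y := by
  classical
  have : Fintype G := Fintype.ofFinite G
  have hcard : Fintype.card G = 1440 := by
    rw [← Nat.card_eq_fintype_card, ← Subgroup.index_mul_card N, hidx, Nat.card_congr e.toEquiv,
      nat_card_alternatingGroup, Nat.card_fin]
    rfl
  let f : G → List ℕ × List ℕ := fun g => (t (auto N e g a), t (auto N e g b))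
  have finj : Function.Injective f := fun g g' hh => by
    rw [Prod.mk.injEq] at hh
    exact eq_of_gens N e hC ha hb (t_injective hh.1) (t_injective hh.2)
  have hab : rel (t a) (t b) = true := by rw [ha, hb]; exact gens_ok.1
  have fmem : ∀ g, f g ∈ imgs.toFinset := fun g => by
    rw [List.mem_toFinset]
    refine mem_imgs _ _ ((rel_iff _ _).2 ?_)
    obtain ⟨q1, q2, q3, q4, q5, q6⟩ := (rel_iff a b).1 hab
    simp only [← map_mul, ← map_pow, q3, q4, q5, q6, map_one, ne_eq,
      MulEquiv.map_eq_one_iff, q1, q2, not_false_eq_true, and_self]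
  have himg : Finset.univ.image f = imgs.toFinset := by
    refine Finset.eq_of_subset_of_card_le (fun p hp => ?_) ?_
    · obtain ⟨g, -, rfl⟩ := Finset.mem_image.mp hp
      exact fmem g
    · rw [Finset.card_image_of_injective _ finj, Finset.card_univ, hcard]
      exact (List.toFinset_card_le _).trans imgs_len.le
  have : (t x, t y) ∈ Finset.univ.image f := himg ▸ List.mem_toFinset.mpr (mem_imgs x y h)
  obtain ⟨g, -, hg⟩ := Finset.mem_image.mp this
  rw [Prod.mk.injEq] at hg
  exact ⟨g, t_injective hg.1, t_injective hg.2⟩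

theorem move (hidx : N.index = 4) (hC : Subgroup.centralizer (N : Set G) = ⊥) (c : A6) :
    ∃ g : G, g ≠ 1 ∧ (∀ d ∈ sylGroup, auto N e g d ∈ sylGroup) ∧ c⁻¹ * auto N e g c ∈ sylGroup := by
  obtain ⟨a, b, ha, hb⟩ := exists_gens
  obtain ⟨w, hw, rfl⟩ := exists_word ha hb c
  have hm := move_ok
  simp only [moveOk, Bool.and_eq_true, List.all_eq_true, List.any_eq_true, List.mem_map,
    Bool.not_eq_true', beq_eq_false_iff_ne, List.contains_iff_mem] at hm
  obtain ⟨_, ⟨p, hp, rfl⟩, hpc⟩ := hm.2 w hw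
  obtain ⟨⟨hne, hrel⟩, hD⟩ := hm.1 _ ⟨p, hp, rfl⟩
  have e1 : ev ta tb p.1 = t (evG a b p.1) := by rw [t_evG, ha, hb]
  have e2 : ev ta tb p.2 = t (evG a b p.2) := by rw [t_evG, ha, hb]
  rw [e1, e2] at hrel hne hpc hD
  obtain ⟨g, hg1, hg2⟩ := exists_auto N e hidx hC ha hb _ _ hrel
  have hev : ∀ u, t (auto N e g (evG a b u)) = ev (t (evG a b p.1)) (t (evG a b p.2)) u := fun u => by
    have h1 := map_evG (auto N e g).toMonoidHom a b u
    simp only [MulEquiv.coe_toMonoidHom] at h1
    rw [h1, hg1, hg2, t_evG]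
  refine ⟨g, fun h => hne ?_, fun d hd => ?_, ?_⟩
  · subst h
    have : ∀ x, auto N e 1 x = x := fun x => e.symm.injective (Subtype.ext (by simp [auto_apply]))
    rw [this] at hg1 hg2
    rw [← hg1, ← hg2, ha, hb]
  · have hd' := hd
    rw [mem_sylGroup, ← syl_ok.1] at hd'
    obtain ⟨u, hu, hu'⟩ := List.mem_map.1 hd'
    rw [show d = evG a b u from t_injective (by rw [t_evG, ha, hb, hu']), mem_sylGroup, hev]
    exact hD u hu
  · obtain ⟨d, hd, hd'⟩ := hpc
    rw [← hev, ← ha, ← hb, ← t_evG] at hd'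
    have hd2 := hd
    rw [← syl_ok.1] at hd2
    obtain ⟨u, -, hu⟩ := List.mem_map.1 hd2
    rw [← hu, ← ha, ← hb, ← t_evG, ← t_mul] at hd'
    rw [← t_injective hd', inv_mul_cancel_left, mem_sylGroup, t_evG, ha, hb, hu]
    exact hd

include e in
theorem inter_ne_bot (hidx : N.index = 4) (hC : Subgroup.centralizer (N : Set G) = ⊥) (H : Sylow 2 G)
    (x : G) : (H : Subgroup G) ⊓ MulAut.conj x • (H : Subgroup G) ≠ ⊥ := by
  classical
  have : Fact (Nat.Prime 2) := ⟨Nat.prime_two⟩
  have hN : Nat.card N = 360 := by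
    rw [Nat.card_congr e.toEquiv, nat_card_alternatingGroup, Nat.card_fin]; rfl
  have hG : Nat.card G = 1440 := by rw [← Subgroup.index_mul_card N, hidx, hN]
  let ι : A6 →* G := N.subtype.comp e.symm.toMonoidHom
  have ιinj : Function.Injective ι := N.subtype_injective.comp e.symm.injective
  have ι_auto : ∀ g y, ι (auto N e g y) = g * ι y * g⁻¹ := fun g y => auto_apply N e g y
  set D : Subgroup G := sylGroup.map ι with hD
  have hDc : Nat.card D = 8 := by
    rw [hD, Subgroup.card_map_of_injective ιinj, card_sylGroup]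
  obtain ⟨K, hK⟩ := (IsPGroup.of_card (p := 2) (n := 3) (by rw [hDc]; rfl) : IsPGroup 2 D).exists_le_sylow
  have hKc : Nat.card (K : Subgroup G) = 32 := by
    rw [Sylow.card_eq_multiplicity, hG, show (1440 : ℕ) = 2 ^ 5 * 45 from rfl,
      Nat.factorization_mul (by norm_num) (by norm_num), Nat.Prime.factorization_pow Nat.prime_two]
    simp [Nat.factorization_eq_zero_of_not_dvd]
  have hDKN : (K : Subgroup G) ⊓ N = D := by
    refine (Subgroup.eq_of_le_of_card_ge (le_inf hK ?_) ?_).symm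
    · rintro _ ⟨y, -, rfl⟩; exact (e.symm y).2
    · have h1 := Subgroup.card_dvd_of_le (inf_le_left : (K : Subgroup G) ⊓ N ≤ K)
      have h2 := Subgroup.card_dvd_of_le (inf_le_right : (K : Subgroup G) ⊓ N ≤ N)
      rw [hKc] at h1
      rw [hN] at h2
      have h3 := Nat.dvd_gcd h1 h2
      rw [hDc]
      exact Nat.le_of_dvd (by norm_num) h3
  set M := Subgroup.normalizer (D : Set G) with hM
  have hKM : (K : Subgroup G) ≤ M := by
    intro k hk
    rw [hM, Subgroup.mem_normalizer_iff]
    intro d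
    show d ∈ D ↔ _
    rw [← hDKN]
    simp only [Subgroup.mem_inf]
    refine and_congr ⟨fun h => mul_mem (mul_mem hk h) (inv_mem hk), fun h => ?_⟩
      ⟨fun h => Subgroup.Normal.conj_mem inferInstance _ h k, fun h => ?_⟩
    · have := mul_mem (mul_mem (inv_mem hk) h) hk
      simpa [mul_assoc] using this
    · have := Subgroup.Normal.conj_mem (H := N) inferInstance _ h k⁻¹
      simpa [mul_assoc] using this
  have hMN : M ⊓ N ≤ D := by
    rintro m ⟨hm, hmN⟩
    set y := e ⟨m, hmN⟩ with hy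
    have hym : ι y = m := by simp [ι, hy]
    refine ⟨y, normalizes_self fun d hd => ?_, hym⟩
    have h := (Subgroup.mem_normalizer_iff.1 hm (ι d)).1 ⟨d, hd, rfl⟩
    obtain ⟨d', hd', h'⟩ := h
    rw [← hym, ← map_inv, ← map_mul, ← map_mul] at h'
    exact ιinj h' ▸ hd'
  have hMK : M ≤ K := by
    refine (Subgroup.eq_of_le_of_card_ge hKM ?_).ge
    rw [hKc]
    have h1 : (M ⊓ N).relIndex N ≤ M.index := by
      rw [Subgroup.inf_relIndex_right]
      rw [← Subgroup.relIndex_top_right]
      exact Subgroup.relIndex_le_of_le_right le_top (by rw [Subgroup.relIndex_top_right]; exact Subgroup.index_ne_zero_of_finite)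
    have h2 : 45 ≤ (M ⊓ N).relIndex N := by
      have h3 : Nat.card (M ⊓ N : Subgroup G) * (M ⊓ N).relIndex N = Nat.card N := by
        have := Subgroup.relIndex_mul_relIndex (⊥ : Subgroup G) (M ⊓ N) N bot_le inf_le_right
        simpa [Subgroup.relIndex_bot_left] using this
      have h4 : Nat.card (M ⊓ N : Subgroup G) ≤ 8 := hDc ▸ Nat.le_of_dvd Nat.card_pos (Subgroup.card_dvd_of_le hMN)
      rw [hN] at h3
      nlinarith
    have h5 := Subgroup.index_mul_card M
    rw [hG] at h5
    nlinarith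
  -- the main step for `K`
  have main : ∀ z : G, (K : Subgroup G) ⊓ MulAut.conj z • (K : Subgroup G) ≠ ⊥ := by
    intro z
    have hDN : ∀ d ∈ D, d ∈ N := by rintro _ ⟨y, -, rfl⟩; exact (e.symm y).2
    let Dz : Subgroup A6 := ((MulAut.conj z • D).comap ι)
    have hDzc : Nat.card Dz = 8 := by
      rw [Nat.card_congr (Dz.equivMapOfInjective ι ιinj).toEquiv, Subgroup.map_comap_eq_self]
      · rw [← Nat.card_congr (Subgroup.equivSMul (MulAut.conj z) D).toEquiv, hDc]
      · intro d hd
        have hdN : d ∈ N := by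
          rw [Subgroup.mem_pointwise_smul_iff_inv_smul_mem] at hd
          have := Subgroup.Normal.conj_mem (H := N) inferInstance _ (hDN _ hd) z
          simpa [MulAut.smul_def, MulAut.conj_apply, mul_assoc] using this
        exact ⟨e ⟨d, hdN⟩, by simp [ι]⟩
    have hA : Nat.card A6 = 360 := by rw [nat_card_alternatingGroup, Nat.card_fin]; rfl
    have hf : (360 : ℕ).factorization 2 = 3 := by
      rw [show (360 : ℕ) = 2 ^ 3 * 45 from rfl, Nat.factorization_mul (by norm_num) (by norm_num),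
        Nat.Prime.factorization_pow Nat.prime_two]
      simp [Nat.factorization_eq_zero_of_not_dvd]
    let P : Sylow 2 A6 := Sylow.ofCard sylGroup (by rw [card_sylGroup, hA, hf]; rfl)
    let Q : Sylow 2 A6 := Sylow.ofCard Dz (by rw [hDzc, hA, hf]; rfl)
    obtain ⟨c, hc⟩ := MulAction.exists_smul_eq A6 P Q
    have hc' : MulAut.conj c • sylGroup = Dz := by
      have := congrArg (fun S : Sylow 2 A6 => (S : Subgroup A6)) hc
      simp only [Sylow.smul_def, Sylow.pointwise_smul_def, Sylow.coe_ofCard, P, Q] at this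
      exact this
    obtain ⟨g, hg1, hg2, hg3⟩ := move N e hidx hC c
    have hgM : ∀ (w : G) (v : A6), v ∈ sylGroup → w = ι v → g * w * g⁻¹ ∈ D := by
      rintro _ v hv rfl
      exact ⟨_, hg2 v hv, ι_auto g v⟩
    have normOf : ∀ m : G, (∀ d ∈ D, m * d * m⁻¹ ∈ D) → m ∈ M := by
      intro m h
      rw [hM, Subgroup.mem_normalizer_iff]
      intro d
      refine ⟨h d, fun hd => ?_⟩
      have himg : (fun d => m * d * m⁻¹) '' (D : Set G) = D := by
        refine Set.eq_of_subset_of_ncard_le (by rintro _ ⟨u, hu, rfl⟩; exact h u hu) ?_ (Set.toFinite _)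
        rw [Set.ncard_image_of_injective _ fun u v huv => by simpa using huv]
      have hd' : m * d * m⁻¹ ∈ (fun d => m * d * m⁻¹) '' (D : Set G) := himg.symm ▸ hd
      obtain ⟨u, hu, hu'⟩ := hd'
      rwa [show u = d by simpa using hu'] at hu
    have hgK : g ∈ (K : Subgroup G) := hMK (normOf g fun d hd => by
      obtain ⟨v, hv, rfl⟩ := hd
      exact hgM _ v hv rfl)
    have hzK : z⁻¹ * g * z ∈ (K : Subgroup G) := hMK (normOf _ fun d hd => by
      have h1 : z * d * z⁻¹ ∈ MulAut.conj z • D := ⟨d, hd, rfl⟩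
      obtain ⟨y, hy⟩ : ∃ y : A6, ι y = z * d * z⁻¹ :=
        ⟨e ⟨_, Subgroup.Normal.conj_mem inferInstance _ (hDN d hd) z⟩, by simp [ι]⟩
      have hy' : y ∈ MulAut.conj c • sylGroup := by
        rw [hc']
        show y ∈ (MulAut.conj z • D).comap ι
        rw [Subgroup.mem_comap, hy]; exact h1
      obtain ⟨v, hv, hv'⟩ := hy'
      have hv2 : y = c * v * c⁻¹ := hv'.symm
      have himg : auto N e g y ∈ MulAut.conj c • sylGroup := by
        refine ⟨(c⁻¹ * auto N e g c) * auto N e g v * (c⁻¹ * auto N e g c)⁻¹,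
          mul_mem (mul_mem hg3 (hg2 v hv)) (inv_mem hg3), ?_⟩
        show c * _ * c⁻¹ = _
        rw [hv2, map_mul, map_mul, map_inv]
        group
      rw [hc'] at himg
      obtain ⟨u, hu, hu'⟩ : ι (auto N e g y) ∈ MulAut.conj z • D := himg
      have hu2 : z * u * z⁻¹ = g * (z * d * z⁻¹) * g⁻¹ := hu'.trans (by rw [ι_auto, hy])
      have : z⁻¹ * g * z * d * (z⁻¹ * g * z)⁻¹ = u := by
        calc z⁻¹ * g * z * d * (z⁻¹ * g * z)⁻¹ = z⁻¹ * (g * (z * d * z⁻¹) * g⁻¹) * z := by group
          _ = u := by rw [← hu2]; group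
      rw [this]; exact hu)
    intro hbot
    refine hg1 ?_
    rw [← Subgroup.mem_bot, ← hbot]
    refine ⟨hgK, z⁻¹ * g * z, hzK, ?_⟩
    show z * (z⁻¹ * g * z) * z⁻¹ = g
    group
  obtain ⟨y, hy⟩ := MulAction.exists_smul_eq G K H
  have hH : (H : Subgroup G) = MulAut.conj y • (K : Subgroup G) := by
    rw [← hy]
    rfl
  intro hbot
  refine main (y⁻¹ * x * y) ?_
  rw [Subgroup.eq_bot_iff_forall] at hbot ⊢
  rintro k ⟨hk, hk'⟩
  have hk1 : y * k * y⁻¹ ∈ (H : Subgroup G) := by rw [hH]; exact ⟨k, hk, rfl⟩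
  obtain ⟨j, hj, hj'⟩ := hk'
  have hk2 : y * k * y⁻¹ ∈ MulAut.conj x • (H : Subgroup G) := by
    refine ⟨y * j * y⁻¹, by rw [hH]; exact ⟨j, hj, rfl⟩, ?_⟩
    show x * (y * j * y⁻¹) * x⁻¹ = _
    rw [← hj']
    show _ = y * (y⁻¹ * x * y * j * (y⁻¹ * x * y)⁻¹) * y⁻¹
    group
  simpa using hbot _ ⟨hk1, hk2⟩

end CfsgLib.H29.AutSix
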